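import Cfsg.Agent.H386.Rg.Asm

/-!
# S3691: the assembly with the size tables (helper337)

`Inp2` : the list of the rows, every row with the lower bounds on `q`; `concl2` : `Ex T H B` implies `Concl B`.
-/

set_option autoImplicit false

namespace Cfsg.Agent.H337.Rg

open Cfsg Cfsg.Agent.H454.Reg Cfsg.Agent.OrdDiv Cfsg.Agent.H436 Cfsg.Agent.H370.Rg

universe u

/-- **the rows** (`Row S` : every `Ex T H B` with `T ≃* S` has `Concl B`) -/
structure Inp2 : Prop where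
  alt : ∀ n : ℕ, 30 ≤ n → Row.{0, u} (alternatingGroup (Fin n))
  psl2 : ∀ (F : Type) [Field F] [Fintype F], 29823000000 < Fintype.card F →
    Row.{0, u} (Matrix.ProjectiveSpecialLinearGroup (Fin 2) F)
  psl : ∀ (F : Type) [Field F] [Fintype F] (n : ℕ), 3 ≤ n → (n = 3 → 8471 < Fintype.card F) →
    (n = 4 → 124 < Fintype.card F) → (n = 5 → 20 < Fintype.card F) → (n = 6 → 7 < Fintype.card F) →
    (n = 7 → 4 < Fintype.card F) → (n = 8 → 3 < Fintype.card F) → (n ≤ 10 → 2 < Fintype.card F) →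
    Row.{0, u} (Matrix.ProjectiveSpecialLinearGroup (Fin n) F)
  psp : ∀ (F : Type) [Field F] [Fintype F] (m : ℕ), 2 ≤ m → (m = 2 → 1387 < Fintype.card F) →
    (m = 3 → 31 < Fintype.card F) → (m = 4 → 7 < Fintype.card F) → (m = 5 → 3 < Fintype.card F) →
    (m ≤ 6 → 2 < Fintype.card F) → Row.{0, u} (PSp m F)
  psu : ∀ (F : Type) [Field F] [Fintype F] (n q : ℕ), Fintype.card F = q ^ 2 → 3 ≤ n → (n = 3 → 8471 < q) →
    (n = 4 → 124 < q) → (n = 5 → 20 < q) → (n = 6 → 7 < q) → (n = 7 → 4 < q) → (n = 8 → 3 < q) →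
    (n ≤ 10 → 2 < q) → Row.{0, u} (PSU n F q)
  oodd : ∀ (F : Type) [Field F] [Fintype F] (m : ℕ), 3 ≤ m → Odd (Fintype.card F) →
    (m = 3 → 31 < Fintype.card F) → (m = 4 → 7 < Fintype.card F) → (m = 5 → 3 < Fintype.card F) →
    Row.{0, u} (POmega F (quadFormOdd m F))
  oplus : ∀ (F : Type) [Field F] [Fintype F] (m : ℕ), 4 ≤ m → (m = 4 → 13 < Fintype.card F) →
    (m = 5 → 4 < Fintype.card F) → (m ≤ 7 → 2 < Fintype.card F) → Row.{0, u} (POmega F (quadFormPlus m F))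
  ominus : ∀ (F : Type) [Field F] [Fintype F] (m : ℕ) (a b : F), 4 ≤ m →
    (∀ z₁ z₂ : F, z₁ ^ 2 + a * z₁ * z₂ + b * z₂ ^ 2 = 0 → z₁ = 0 ∧ z₂ = 0) → (m = 4 → 13 < Fintype.card F) →
    (m = 5 → 4 < Fintype.card F) → (m ≤ 7 → 2 < Fintype.card F) →
    Row.{0, u} (POmega F (quadFormMinus (m - 1) F a b))
  g2 : ∀ (F : Type) [Field F] [Fintype F], 175 < Fintype.card F → Row.{0, u} (Lie.chevG2.group F)
  f4 : ∀ (F : Type) [Field F] [Fintype F], 4 < Fintype.card F → Row.{0, u} (Lie.chevF4.group F)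
  e6 : ∀ (F : Type) [Field F] [Fintype F], 2 < Fintype.card F → Row.{0, u} (Lie.chevE6.group F)
  e7 : ∀ (F : Type) [Field F] [Fintype F], Row.{0, u} (Lie.chevE7.group F)
  e8 : ∀ (F : Type) [Field F] [Fintype F], Row.{0, u} (Lie.chevE8.group F)
  te6 : ∀ (F : Type) [Field F] [Fintype F] (q : ℕ), Fintype.card F = q ^ 2 → 2 < q → Row.{0, u} (Lie.twistedE6 F q)
  td4 : ∀ (F : Type) [Field F] [Fintype F] (q : ℕ), Fintype.card F = q ^ 3 → 13 < q → Row.{0, u} (Lie.twistedD4 F q)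
  sz : ∀ (F : Type) [Field F] [Fintype F] (m : ℕ), 10 ≤ m → Fintype.card F = 2 ^ (2 * m + 1) →
    Row.{0, u} (Lie.Sz F (2 ^ (m + 1)))
  ree : ∀ (F : Type) [Field F] [Fintype F] (m : ℕ), 5 ≤ m → Fintype.card F = 3 ^ (2 * m + 1) →
    Row.{0, u} (Lie.twistedG2 F (3 ^ m))
  tf4 : ∀ (F : Type) [Field F] [Fintype F] (m : ℕ), 2 ≤ m → Fintype.card F = 2 ^ (2 * m + 1) →
    Row.{0, u} (Lie.twistedF4 F (2 ^ m))
  b : Row.{0, u} Spor.BabyMonster
  m : Row.{0, u} Spor.Monster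

variable {G : Type u} [Group G] {T H B : Subgroup G}

/-- **the assembly** -/
theorem concl2 [Finite G] (tab : OrderTable.{u}) (I : Inp2.{u}) (h : Ex T H B) (hT : IsKnownSimple' T) : Concl B := by
  have hna : ¬ ∀ a b : T, a * b = b * a := fun hc => h.nonab ⟨⟨hc⟩⟩
  obtain ⟨g, hg⟩ := exists_named tab hT hna
  have hl := h.large_socle
  have hr := hg.real
  have hc := hg.cond
  by_cases hsp : g ∈ spor.map (fun x => x.1)
  · rcases spor_bm hl hg hsp with rfl | rfl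
    · obtain ⟨e⟩ := hr
      exact I.b T H B h ⟨e⟩
    · obtain ⟨e⟩ := hr
      exact I.m T H B h ⟨e⟩
  cases g with
  | alt n => exact I.alt n (alt_ge hl hg) T H B h hr
  | psl n q =>
    obtain ⟨F, _, _, hF, e⟩ := hr
    obtain ⟨s2, s3, s4, s5, s6, s7, s8, s9⟩ := psl_ge hl hg
    subst hF
    rcases Nat.lt_or_ge n 3 with h3 | h3
    · obtain rfl : n = 2 := le_antisymm (by omega) hc.1
      exact I.psl2 F (s2 rfl) T H B h e
    · exact I.psl F n h3 s3 s4 s5 s6 s7 s8 s9 T H B h e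
  | psp m q =>
    obtain ⟨F, _, _, hF, e⟩ := hr
    obtain ⟨s2, s3, s4, s5, s6⟩ := psp_ge hl hg
    subst hF
    exact I.psp F m hc.1 s2 s3 s4 s5 s6 T H B h e
  | psu n q =>
    obtain ⟨F, _, _, hF, e⟩ := hr
    obtain ⟨s3, s4, s5, s6, s7, s8, s9⟩ := psu_ge hl hg
    exact I.psu F n q hF hc.1 s3 s4 s5 s6 s7 s8 s9 T H B h e
  | oodd m q =>
    obtain ⟨F, _, _, hF, e⟩ := hr
    obtain ⟨s3, s4, s5, s6⟩ := oodd_ge hl hg
    subst hF
    exact I.oodd F m hc.1 hc.2.1 s3 s4 s5 T H B h e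
  | oplus m q =>
    obtain ⟨F, _, _, hF, e⟩ := hr
    obtain ⟨s4, s5, s6⟩ := oplus_ge hl hg
    subst hF
    exact I.oplus F m hc.1 s4 s5 s6 T H B h e
  | ominus m q =>
    obtain ⟨F, _, _, a, b, hF, hab, e⟩ := hr
    obtain ⟨s4, s5, s6⟩ := ominus_ge hl hg
    subst hF
    exact I.ominus F m a b hc.1 hab s4 s5 s6 T H B h e
  | g2 q =>
    obtain ⟨F, _, _, hF, e⟩ := hr
    have s := g2_ge hl hg
    subst hF
    exact I.g2 F s T H B h e
  | f4 q =>
    obtain ⟨F, _, _, hF, e⟩ := hr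
    have s := f4_ge hl hg
    subst hF
    exact I.f4 F s T H B h e
  | e6 q =>
    obtain ⟨F, _, _, hF, e⟩ := hr
    have s := e6_ge hl hg
    subst hF
    exact I.e6 F s T H B h e
  | e7 q => obtain ⟨F, _, _, hF, e⟩ := hr; exact I.e7 F T H B h e
  | e8 q => obtain ⟨F, _, _, hF, e⟩ := hr; exact I.e8 F T H B h e
  | te6 q => obtain ⟨F, _, _, hF, e⟩ := hr; exact I.te6 F q hF (te6_ge hl hg) T H B h e
  | td4 q => obtain ⟨F, _, _, hF, e⟩ := hr; exact I.td4 F q hF (td4_ge hl hg) T H B h e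
  | sz q =>
    obtain ⟨F, _, _, m, hm, hF, hq, e⟩ := hr
    obtain ⟨k, hk, hk'⟩ := sz_ge hl hg
    have h1 := Nat.pow_right_injective (le_refl 2) (hq.symm.trans hk')
    exact I.sz F m (by omega) (hF.trans hq) T H B h e
  | ree q =>
    obtain ⟨F, _, _, m, hm, hF, hq, e⟩ := hr
    obtain ⟨k, hk, hk'⟩ := ree_ge hl hg
    have h1 := Nat.pow_right_injective (by norm_num : 2 ≤ 3) (hq.symm.trans hk')
    exact I.ree F m (by omega) (hF.trans hq) T H B h e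
  | tf4 q =>
    obtain ⟨F, _, _, m, hm, hF, hq, e⟩ := hr
    obtain ⟨k, hk, hk'⟩ := tf4_ge hl hg
    have h1 := Nat.pow_right_injective (le_refl 2) (hq.symm.trans hk')
    exact I.tf4 F m (by omega) (hF.trans hq) T H B h e
  | _ => exact absurd (by decide) hsp

end Cfsg.Agent.H337.Rg
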